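import Cfsg.Agent.Lib.Tits.Odd
import Cfsg.Agent.Lib.Twisted.OutStd
import Cfsg.Agent.Lib.Fusion.LieSimple
import Cfsg.Agent.Lib.Fusion.Basic
import Cfsg.Agent.Lib.FGS.ClassSize
import Cfsg.Prelude.Def_LocalEven

/-!
Minimal parabolic groups over a normal subgroup whose Borel overgroups form a Boolean lattice.
-/

set_option autoImplicit false

namespace Cfsg.Lib.PMin

open Subgroup Cfsg.Lib.St

/-- The overgroups of the normaliser of `U` are indexed by the subsets of a finite set. -/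
structure PS {G : Type*} [Group G] (U : Subgroup G) where
  κ : Type
  ne : Nonempty κ
  P : Set κ → Subgroup G
  B_le : ∀ J, normalizer (U : Set G) ≤ P J
  ovr : ∀ M, normalizer (U : Set G) ≤ M → ∃ J, M = P J
  le_iff : ∀ I J, P I ≤ P J ↔ I ⊆ J

variable {G : Type*} [Group G] {U : Subgroup G}

theorem mem_normalizer_map {θ : MulAut G} (h : ∀ g, θ g ∈ U ↔ g ∈ U) (g : G) :
    θ g ∈ normalizer (U : Set G) ↔ g ∈ normalizer (U : Set G) := by
  simp only [mem_normalizer_iff]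
  refine ⟨fun h1 x => ?_, fun h1 x => ?_⟩
  · rw [← h, h1, ← h (g * x * g⁻¹), map_mul, map_mul, map_inv]
  · obtain ⟨x, rfl⟩ := θ.surjective x
    rw [h, h1, ← h (g * x * g⁻¹), map_mul, map_mul, map_inv]

namespace PS

variable (A : PS U)

theorem P_empty : A.P ∅ = normalizer (U : Set G) := by
  obtain ⟨J, hJ⟩ := A.ovr _ le_rfl
  exact le_antisymm (hJ ▸ (A.le_iff _ _).2 (Set.empty_subset _)) (A.B_le _)

theorem P_univ : A.P Set.univ = ⊤ := by
  obtain ⟨J, hJ⟩ := A.ovr ⊤ le_top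
  exact top_le_iff.1 (hJ ▸ (A.le_iff _ _).2 (Set.subset_univ _))

theorem P_inj {I J : Set A.κ} (h : A.P I = A.P J) : I = J :=
  ((A.le_iff _ _).1 h.le).antisymm ((A.le_iff _ _).1 h.ge)

theorem U_le (J : Set A.κ) : U ≤ A.P J := le_normalizer.trans (A.B_le J)

/-- `θ` maps the `k`-th minimal overgroup to the `l`-th one. -/
def Mv (θ : MulAut G) (k l : A.κ) : Prop := ∀ g, θ g ∈ A.P {l} ↔ g ∈ A.P {k}

variable {A}

theorem Mv.inv {θ : MulAut G} {k l : A.κ} (h : A.Mv θ k l) : A.Mv θ⁻¹ l k := fun g => by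
  rw [← h]; simp

theorem Mv.mul {θ θ' : MulAut G} {k l m : A.κ} (h : A.Mv θ k l) (h' : A.Mv θ' l m) :
    A.Mv (θ' * θ) k m := fun g => (h' _).trans (h g)

theorem Mv.eq {k l : A.κ} (h : A.Mv 1 k l) : k = l :=
  Set.singleton_injective (A.P_inj (Subgroup.ext fun g => (h g).symm))

theorem exists_mv {θ : MulAut G} (h : ∀ g, θ g ∈ U ↔ g ∈ U) (k : A.κ) : ∃ l, A.Mv θ k l := by
  have key : ∀ θ : MulAut G, (∀ g, θ g ∈ U ↔ g ∈ U) → ∀ k, ∃ I : Set A.κ, I.Nonempty ∧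
      ∀ g, θ g ∈ A.P {k} ↔ g ∈ A.P I := fun θ h k => by
    obtain ⟨I, hI⟩ := A.ovr ((A.P {k}).comap θ.toMonoidHom) fun g hg =>
      A.B_le _ ((mem_normalizer_map h g).2 hg)
    refine ⟨I, Set.nonempty_iff_ne_empty.2 ?_, fun g => hI ▸ Iff.rfl⟩
    rintro rfl
    refine Set.singleton_ne_empty k (Set.subset_empty_iff.1 ((A.le_iff _ _).1 fun g hg => ?_))
    obtain ⟨g, rfl⟩ := θ.surjective g
    rw [P_empty, mem_normalizer_map h, ← A.P_empty, ← hI]
    exact hg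
  obtain ⟨I, ⟨l, hl⟩, hI⟩ := key θ⁻¹ (fun g => by rw [← h]; simp) k
  obtain ⟨I', h1, h2⟩ := key θ h l
  have h3 : I' ⊆ {k} := (A.le_iff _ _).1 fun g hg => by
    simpa using (hI _).2 ((A.le_iff _ _).2 (Set.singleton_subset_iff.2 hl) ((h2 g).2 hg))
  exact ⟨l, fun g => by rw [h2, (Set.subset_singleton_iff_eq.1 h3).resolve_left h1.ne_empty]⟩

variable (A) in
/-- A group of `p`-automorphisms is transitive on the minimal overgroups. -/
def Tr (p : ℕ) : Prop :=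
  ∀ k l, ∃ θ : MulAut G, (∃ n, θ ^ p ^ n = 1) ∧ (∀ g, θ g ∈ U ↔ g ∈ U) ∧ A.Mv θ k l

theorem Tr.eq_two {p : ℕ} [hp : Fact p.Prime] (h : A.Tr p) {k l : A.κ} (h1 : k ≠ l)
    (h2 : ∀ m, m = k ∨ m = l) : p = 2 := by
  by_contra h3
  obtain ⟨θ, ⟨n, hn⟩, h4, h5⟩ := h k l
  obtain ⟨m, h6⟩ := exists_mv h4 l
  obtain rfl : m = k := (h2 m).resolve_right (by
    rintro rfl
    exact h1 (by simpa using h5.mul h6.inv : A.Mv 1 k m).eq)
  have h7 : ∀ j, A.Mv (θ ^ (2 * j + 1)) m l := fun j => by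
    induction j with
    | zero => simpa using h5
    | succ j ih =>
      convert (ih.mul h6).mul h5 using 1
      rw [← pow_succ', ← pow_succ']
      rfl
  obtain ⟨j, hj⟩ := (hp.out.odd_of_ne_two h3).pow (n := n)
  exact h1 (hn ▸ hj ▸ h7 j : A.Mv 1 m l).eq

theorem Tr.relIndex_eq {p : ℕ} (h : A.Tr p) (k l : A.κ) :
    (A.P ∅).relIndex (A.P {k}) = (A.P ∅).relIndex (A.P {l}) := by
  obtain ⟨θ, -, h1, h2⟩ := h k l
  have h3 : (A.P ∅).comap θ.toMonoidHom = A.P ∅ := by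
    rw [P_empty]; exact Subgroup.ext (mem_normalizer_map h1)
  rw [← h3, ← show (A.P {l}).comap θ.toMonoidHom = A.P {k} from Subgroup.ext h2, relIndex_comap,
    map_comap_eq_self_of_surjective θ.surjective, h3]

end PS

variable {p : ℕ} [hp : Fact p.Prime]

theorem exists_conj_le [Finite G] {H Q : Subgroup G} (hU : IsPGroup p U) (hi : ¬ p ∣ U.index)
    (h1 : U ≤ H) (hQ : IsPGroup p Q) (h2 : Q ≤ H) : ∃ h ∈ H, ∀ a ∈ Q, h * a * h⁻¹ ∈ U := by
  obtain ⟨T, hT⟩ := (hQ.comap_subtype (K := H)).exists_le_sylow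
  obtain ⟨h, e⟩ := MulAction.exists_smul_eq H T ((hU.comap_subtype (K := H)).toSylow
    fun h => hi (h.trans (relIndex_dvd_index_of_le h1)))
  refine ⟨h, h.2, fun a ha => ?_⟩
  have : h * ⟨a, h2 ha⟩ * h⁻¹ ∈ (h • T : Sylow p H) := smul_mem_pointwise_smul _ _ _ (hT ha)
  rw [e] at this
  exact this

theorem le_of_normalizer [Finite G] {Q : Subgroup G} (hU : IsPGroup p U) (hi : ¬ p ∣ U.index)
    (hQ : IsPGroup p Q) (h2 : Q ≤ normalizer (U : Set G)) : Q ≤ U := fun a ha => by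
  obtain ⟨h, h3, h4⟩ := exists_conj_le hU hi le_normalizer hQ h2
  exact (mem_normalizer_iff.1 h3 a).2 (h4 a ha)

variable {X : Type*} [Group X] [Finite X]

theorem main_aux (hX : IsPMinimal p X) {K : Subgroup X} [hK : K.Normal] (e : K ≃* G)
    (hU : IsPGroup p U) (hi : ¬ p ∣ U.index) (A : PS U) :
    IsCoatom (normalizer ((U.map (K.subtype.comp e.symm.toMonoidHom) : Subgroup X) : Set X)) ∧
      A.Tr p ∧ (Nontrivial A.κ → K ≠ ⊤) := by
  have : Finite G := .of_equiv _ e.toEquiv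
  set f : G →* X := K.subtype.comp e.symm.toMonoidHom
  have hf : Function.Injective f := K.subtype_injective.comp e.symm.injective
  have fK : ∀ g, f g ∈ K := fun g => (e.symm g).2
  have exf : ∀ x ∈ K, ∃ g, f g = x := fun x hx => ⟨e ⟨x, hx⟩, by simp [f]⟩
  let ψ : X →* MulAut G := (MulAut.congr e).toMonoidHom.comp MulAut.conjNormal
  have hψ : ∀ x g, f (ψ x g) = x * f g * x⁻¹ := fun x g => by simp [ψ, f]
  obtain ⟨S, hS⟩ := (hU.map f).exists_le_sylow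
  have hSU : ∀ g, f g ∈ S ↔ g ∈ U := fun g => ⟨fun h => ((hU.toSylow hi).is_maximal'
    (S.isPGroup'.comap_of_injective f hf) fun a ha => hS ⟨a, ha, rfl⟩).le h,
    fun h => hS ⟨g, h, rfl⟩⟩
  have sU : ∀ s ∈ S, ∀ g, ψ s g ∈ U ↔ g ∈ U := fun s hs g => by
    rw [← hSU, ← hSU, hψ, mul_mem_cancel_right (inv_mem hs), mul_mem_cancel_left hs]
  obtain ⟨M, ⟨hM, hSM⟩, hu⟩ := (hX S).2
  have leM : ∀ H : Subgroup X, (S : Subgroup X) ≤ H → H ≠ ⊤ → H ≤ M := fun H h1 h2 => by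
    obtain ⟨M', h3, h4⟩ := (eq_top_or_exists_le_coatom H).resolve_left h2
    exact hu M' ⟨h3, h1.trans h4⟩ ▸ h4
  have key : ∀ H : Subgroup G, U ≤ H → H ≠ ⊤ → (∀ s ∈ S, ∀ g ∈ H, ψ s g ∈ H) →
      H ≤ M.comap f := fun H h1 h2 h3 => by
    have h4 : (S : Subgroup X) ≤ normalizer (H.map f : Set X) := fun s hs =>
      Chev.PreSys.mem_normalizer_of_conj (by
        rintro _ ⟨g, hg, rfl⟩
        exact ⟨_, h3 s hs g hg, hψ _ _⟩) (by
        rintro _ ⟨g, hg, rfl⟩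
        exact ⟨_, h3 _ (inv_mem hs) g hg, (hψ s⁻¹ g).trans (by simp)⟩)
    refine map_le_iff_le_comap.1 (le_sup_left.trans (leM _ le_sup_right fun h5 => h2 ?_))
    refine top_le_iff.1 fun g _ => ?_
    obtain ⟨_, ⟨a, ha, rfl⟩, s, hs, e⟩ := (Chev.mem_sup_iff_of_le_normalizer h4).1
      (h5.ge (mem_top (f g)))
    have : a⁻¹ * g ∈ U := (hSU _).1 (by rw [map_mul, map_inv, e, inv_mul_cancel_left]; exact hs)
    simpa using mul_mem ha (h1 this)
  have hN : ∀ x, x ∈ normalizer ((U.map f : Subgroup X) : Set X) ↔ ∀ g, ψ x g ∈ U ↔ g ∈ U :=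
    fun x => ⟨fun h g => by
      rw [← mem_map_iff_mem hf, ← mem_map_iff_mem (x := g) hf, hψ, ← mem_normalizer_iff.1 h],
      fun h => Chev.PreSys.mem_normalizer_of_conj (by
        rintro _ ⟨g, hg, rfl⟩
        exact ⟨_, (h g).2 hg, hψ _ _⟩) (by
        rintro _ ⟨g, hg, rfl⟩
        exact ⟨ψ x⁻¹ g, (h _).1 (by simpa using hg), (hψ x⁻¹ g).trans (by simp)⟩)⟩
  have ψf : ∀ a g, ψ (f a) g = a * g * a⁻¹ := fun a g => hf (by simp [hψ])
  obtain ⟨k₀⟩ := A.ne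
  have hB : normalizer (U : Set G) ≠ ⊤ := fun h => Set.singleton_ne_empty k₀
    (Set.subset_empty_iff.1 ((A.le_iff _ _).1 (by rw [A.P_empty, h]; exact le_top)))
  have NM : normalizer ((U.map f : Subgroup X) : Set X) ≤ M :=
    leM _ (fun s hs => (hN s).2 (sU s hs)) fun h => hB (top_le_iff.1 fun a _ =>
      mem_normalizer_iff.2 fun g => by rw [← ψf, (hN _).1 (h.ge (mem_top _))])
  have PM : M.comap f ≠ ⊤ := fun h => hM.1 (top_le_iff.1 fun x _ => by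
    obtain ⟨a, -, ha⟩ := exists_conj_le hU hi le_top (hU.map (ψ x).toMonoidHom) le_top
    have h1 : f a * x ∈ normalizer ((U.map f : Subgroup X) : Set X) :=
      Fusion.mem_normalizer_of_conj_mem (by
        rintro _ ⟨g, hg, rfl⟩
        exact ⟨_, ha _ ⟨g, hg, rfl⟩, by simp [hψ, mul_assoc]⟩)
    have h2 : f a ∈ M := h.ge (mem_top a)
    exact (mul_mem_cancel_left h2).1 (NM h1))
  obtain ⟨J, hJ⟩ := A.ovr _ (key _ le_normalizer hB fun s hs g hg =>
    (mem_normalizer_map (sU s hs) g).2 hg)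
  have hJ' : J ≠ Set.univ := fun h => PM (by rw [hJ, h, A.P_univ])
  have sub : ∀ O : Set A.κ, O ≠ Set.univ → (∀ s ∈ S, ∀ l ∈ O, ∀ l', A.Mv (ψ s) l l' → l' ∈ O) →
      O ⊆ J := fun O h1 h2 => by
    refine (A.le_iff _ _).1 (hJ ▸ key _ (A.U_le O) (fun h => h1 (A.P_inj (h.trans A.P_univ.symm)))
      fun s hs => ?_)
    obtain ⟨I, hI⟩ := A.ovr ((A.P O).comap (ψ s).toMonoidHom) fun g hg =>
      A.B_le _ ((mem_normalizer_map (sU s hs) g).2 hg)
    refine (hI ▸ (A.le_iff _ _).2 fun l hl => Set.singleton_subset_iff.1 ((A.le_iff _ _).1 ?_) :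
      A.P O ≤ (A.P O).comap (ψ s).toMonoidHom)
    obtain ⟨l', h3⟩ := PS.exists_mv (sU s hs) l
    exact hI ▸ fun g hg => (A.le_iff _ _).2 (Set.singleton_subset_iff.2 (h2 s hs l hl l' h3))
      ((h3 g).2 hg)
  have tr : ∀ k l, ∃ s ∈ S, A.Mv (ψ s) k l := fun k => by
    by_contra h
    have h1 := sub {l | ∃ s ∈ S, A.Mv (ψ s) k l} (fun e => h fun l => e.ge (Set.mem_univ l))
      fun s hs l ⟨s', h1, h2⟩ l' h3 => ⟨s * s', mul_mem hs h1, by simpa using h2.mul h3⟩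
    have h2 := sub {l | ∃ s ∈ S, A.Mv (ψ s) k l}ᶜ (fun e => e.ge (Set.mem_univ k)
      ⟨1, one_mem _, fun g => by simp⟩) fun s hs l h1 l' h3 ⟨s', h4, h5⟩ =>
        h1 ⟨s⁻¹ * s', mul_mem (inv_mem hs) h4, by simpa using h5.mul h3.inv⟩
    exact hJ' (Set.eq_univ_of_forall fun l => (em _).elim (fun h => h1 h) fun h => h2 h)
  have mM : ∀ m ∈ M, ∀ g, ψ m g ∈ M.comap f ↔ g ∈ M.comap f := fun m hm g => by
    rw [mem_comap, mem_comap, hψ, mul_mem_cancel_right (inv_mem hm), mul_mem_cancel_left hm]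
  obtain rfl : J = ∅ := Set.eq_empty_of_forall_notMem fun k hk => hJ' (Set.eq_univ_of_forall
    fun l => Set.singleton_subset_iff.1 ((A.le_iff _ _).1 fun g hg => by
      obtain ⟨s, h1, h2⟩ := tr l k
      rw [← hJ, ← mM s (hSM h1), hJ]
      exact (A.le_iff _ _).2 (Set.singleton_subset_iff.2 hk) ((h2 g).2 hg)))
  rw [A.P_empty] at hJ
  refine ⟨le_antisymm NM (fun m hm => Fusion.mem_normalizer_of_conj_mem ?_) ▸ hM,
    fun k l => ?_, fun h h' => ?_⟩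
  · rintro _ ⟨g, hg, rfl⟩
    refine ⟨ψ m g, le_of_normalizer hU hi (hU.map (ψ m).toMonoidHom) ?_ ⟨g, hg, rfl⟩, hψ _ _⟩
    rintro _ ⟨a, ha, rfl⟩
    exact hJ ▸ (mM m hm a).2 (hJ ▸ le_normalizer ha)
  · obtain ⟨s, h1, h2⟩ := tr k l
    obtain ⟨n, hn⟩ := S.isPGroup' ⟨s, h1⟩
    exact ⟨_, ⟨n, by rw [← map_pow, show s ^ p ^ n = 1 from congrArg Subtype.val hn, map_one]⟩,
      sU s h1, h2⟩
  · obtain ⟨k, l, h1⟩ := exists_pair_ne A.κ
    obtain ⟨s, h2, h3⟩ := tr k l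
    obtain ⟨a, rfl⟩ := exf s (h'.ge (mem_top s))
    have h4 := A.U_le {l} ((hSU a).1 h2)
    refine h1 (PS.Mv.eq fun g => ?_)
    rw [← h3, ψf, mul_mem_cancel_right (inv_mem h4), mul_mem_cancel_left h4]
    rfl

theorem main (hX : IsPMinimal p X) {K : Subgroup X} [hK : K.Normal] (e : K ≃* G)
    (hU : IsPGroup p U) (hi : ¬ p ∣ U.index) (A : PS U) (T : Sylow p K) :
    IsCoatom (normalizer (((T : Subgroup K).map K.subtype : Subgroup X) : Set X)) ∧
      A.Tr p ∧ (Nontrivial A.κ → K ≠ ⊤) := by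
  have : Finite G := .of_equiv _ e.toEquiv
  obtain ⟨g, -, hg⟩ := exists_conj_le hU hi le_top (T.isPGroup'.map e.toMonoidHom) le_top
  convert main_aux hX (e.trans (MulAut.conj g)) hU hi A
  rw [← map_map]
  congr 1
  refine (T.is_maximal' (hU.map _) fun a ha => ⟨_, hg _ ⟨a, ha, rfl⟩, ?_⟩).symm
  simp [mul_assoc]

/-- The parabolic subgroups of a group of Lie type. -/
def liePS (L : LieP p G) : PS L.S.U where
  κ := L.ι
  ne := L.ne
  P := L.T.P
  B_le J := L.normalizer_U ▸ L.T.B_le_P J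
  ovr _ h := L.exists_eq_P (L.normalizer_U ▸ h)
  le_iff _ _ := ⟨fun h i hi => let ⟨_, hx⟩ := L.T.surj i trivial
    L.mem_of_δ (h (L.T.P_mono (Set.singleton_subset_iff.2 hi) (L.mem_P_simple hx))) hx, L.T.P_mono⟩

section Der

variable [Finite G] (L : LieP p G) {N : Subgroup G} [hN : N.Normal]
  (hO : ∀ M : Subgroup N, pCore p M = ⊥ → ¬ p ∣ M.index → M = ⊤)

omit hp in
theorem not_dvd_inf : ¬ p ∣ (L.S.U.subgroupOf N).index := fun h =>
  L.S.not_dvd (h.trans (FGS.relIndex_dvd_index_of_normal' L.S.U N))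

include hO in
theorem exists_le_P {M : Subgroup N} (h0 : L.S.U.subgroupOf N ≤ M) (h1 : M ≠ ⊤) :
    ∃ J ≠ Set.univ, ∃ g ∈ normalizer ((L.S.U ⊓ N : Subgroup G) : Set G),
      ∀ m ∈ M, g * m * g⁻¹ ∈ L.T.P J := by
  obtain ⟨g, J, hJ, -, h2⟩ := L.bt ((pCore p M).map (N.subtype.comp M.subtype))
    ((Core.pCore_isPGroup p M).map _) fun h => h1 (hO M ((map_eq_bot_iff_of_injective _
      fun _ _ h => Subtype.ext (Subtype.ext h)).1 h)
      fun h => not_dvd_inf L (h.trans (index_dvd_of_le h0)))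
  have h3 : ∀ m ∈ M, g⁻¹ * m * g ∈ L.T.P J := fun m hm => h2 _
    (Fusion.mem_normalizer_of_conj_mem (by
      rintro _ ⟨a, ha, rfl⟩
      exact ⟨_, Normal.conj_mem inferInstance a ha ⟨m, hm⟩, rfl⟩))
  obtain ⟨h, h4, h5⟩ := exists_conj_le L.S.pU L.S.not_dvd (L.U_le_P J)
    ((L.S.pU.to_inf_left (K := N)).map (MulAut.conj g⁻¹).toMonoidHom) (by
      rintro _ ⟨a, ha, rfl⟩
      simpa using h3 ⟨a, ha.2⟩ (h0 ha.1))
  refine ⟨J, hJ, h * g⁻¹, Fusion.mem_normalizer_of_conj_mem fun a ha =>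
    ⟨by simpa [mul_assoc] using h5 _ ⟨a, ha, rfl⟩, hN.conj_mem a ha.2 _⟩, fun m hm => ?_⟩
  simpa [mul_assoc] using mul_mem (mul_mem h4 (h3 m hm)) (inv_mem h4)

/-- The case of rank one. -/
def onePS [Subsingleton L.ι] (h1 : normalizer (L.S.U.subgroupOf N : Set N) ≠ ⊤) :
    PS (L.S.U.subgroupOf N) where
  κ := Unit
  ne := inferInstance
  P J := ⨅ _ : () ∉ J, normalizer (L.S.U.subgroupOf N : Set N)
  B_le _ := le_iInf fun _ => le_rfl
  ovr M h := by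
    rcases eq_or_ne M ⊤ with rfl | h2
    · exact ⟨Set.univ, by simp⟩
    refine ⟨∅, le_antisymm (le_iInf fun _ m hm => ?_) (by simpa using h)⟩
    obtain ⟨J, hJ, g, h3, h4⟩ := exists_le_P L hO (le_normalizer.trans h) h2
    rw [(Set.eq_empty_or_nonempty J).resolve_right (mt Subsingleton.eq_univ_of_nonempty hJ),
      L.T.P_empty] at h4
    refine Fusion.mem_normalizer_of_conj_mem fun a ha => ?_
    have h5 := L.S.conj_U (h4 m hm) ((mem_normalizer_iff.1 h3 a).1 ⟨ha, a.2⟩).1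
    exact ((mem_normalizer_iff.1 h3 _).2 ⟨by simpa [mul_assoc] using h5,
      hN.conj_mem _ (m * a * m⁻¹).2 g⟩).1
  le_iff I J := by
    by_cases h2 : () ∈ J
    · exact iff_of_true (by simp [h2]) fun _ _ => h2
    by_cases h3 : () ∈ I
    · simpa [h2, h3, h1] using fun h => h2 (h h3)
    · exact iff_of_true (by simp [h2, h3]) fun _ h => (h3 h).elim

end Der

section Two

variable [Finite G] {L : LieP 2 G} {N : Subgroup G} (h2 : N.index = 2)
  (hV : ∀ i, ¬ L.S.V {i} ≤ N) (hB : L.T.B ≤ L.S.U)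
include h2 hV

omit [Finite G] in
theorem relIndex_two {H : Subgroup G} (h : L.S.U ≤ H) : N.relIndex H = 2 := by
  have := normal_of_index_eq_two h2
  obtain ⟨i⟩ := L.ne
  exact ((Nat.dvd_prime Nat.prime_two).1 (h2 ▸ relIndex_dvd_index_of_normal N H)).resolve_left
    fun e => hV i ((L.S.V_le _).trans (h.trans (relIndex_eq_one.1 e)))

omit [Finite G] in
theorem relIndex_inf {H : Subgroup G} (h : L.S.U ≤ H) :
    (L.S.U.subgroupOf N).relIndex (H.subgroupOf N) = L.S.U.relIndex H := by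
  have h3 := relIndex_mul_relIndex (L.S.U ⊓ N) L.S.U H inf_le_left h
  have h4 := relIndex_mul_relIndex (L.S.U ⊓ N) (H ⊓ N) H (inf_le_inf_right _ h) inf_le_left
  rw [inf_relIndex_left, relIndex_two h2 hV le_rfl] at h3
  rw [inf_relIndex_left, relIndex_two h2 hV h, ← h3] at h4
  rw [← inf_subgroupOf_right, ← inf_subgroupOf_right H, relIndex_subgroupOf inf_le_right]
  omega

include hB

theorem normalizer_inf_le : normalizer ((L.S.U ⊓ N : Subgroup G) : Set G) ≤ L.S.U := by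
  have := normal_of_index_eq_two h2
  obtain ⟨J, hJ⟩ := L.exists_eq_P (hB.trans (LieP.le_normalizer_inf (H := L.S.U) (N := N)))
  rcases J.eq_empty_or_nonempty with rfl | ⟨i, hi⟩
  · rwa [hJ, L.T.P_empty]
  have h3 : L.T.P {i} ≤ normalizer ((L.S.U ⊓ N : Subgroup G) : Set G) :=
    hJ ▸ L.T.P_mono (Set.singleton_subset_iff.2 hi)
  obtain ⟨x, hx⟩ := L.T.surj i trivial
  have h4 : L.S.U ⊓ N ≤ L.S.V {i} := fun u hu => (L.mem_V hx).2 ⟨hu.1,
    L.S.U_le ((mem_normalizer_iff.1 (h3 (L.mem_P_simple hx)) u).1 hu).1⟩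
  obtain ⟨v, h5, h6⟩ := SetLike.not_le_iff_exists.1 (hV i)
  have h7 : L.S.V {i} = L.S.U := le_antisymm (L.S.V_le _) fun u hu => by
    by_cases h : u ∈ N
    · exact h4 ⟨hu, h⟩
    · exact (mul_mem_cancel_left h5).1 (h4 ⟨mul_mem (L.S.V_le _ h5) hu,
        (mul_mem_iff_of_index_two h2).2 (iff_of_false h6 h)⟩)
  have h8 := L.normalizer_V {i}
  rw [h7, L.normalizer_U, ← L.T.P_empty] at h8
  exact absurd ((liePS L).P_inj h8) (Set.empty_ne_singleton i)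

/-- The case of a subgroup of index two in a group of rank two. -/
def twoPS (hO : ∀ M : Subgroup N, pCore 2 M = ⊥ → ¬ 2 ∣ M.index → M = ⊤)
    (hr : ∀ J ≠ Set.univ, ∃ i : L.ι, J ⊆ {i}) (hp : ∀ i, (L.S.U.relIndex (L.T.P {i})).Prime) :
    PS (L.S.U.subgroupOf N) where
  κ := L.ι
  ne := L.ne
  P J := (L.T.P J).subgroupOf N
  B_le J g hg := L.U_le_P J (normalizer_inf_le h2 hV hB (Fusion.mem_normalizer_of_conj_mem
    fun a ha => ⟨(mem_normalizer_iff.1 hg ⟨a, ha.2⟩).1 ha.1,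
      N.mul_mem (N.mul_mem g.2 ha.2) (N.inv_mem g.2)⟩))
  ovr M h := by
    have := normal_of_index_eq_two h2
    rcases eq_or_ne M ⊤ with rfl | h3
    · exact ⟨Set.univ, by rw [L.T.P_self, top_subgroupOf]⟩
    have h4 := le_normalizer.trans h
    obtain ⟨J, hJ, g, h5, h6⟩ := exists_le_P L hO h4 h3
    obtain ⟨i, hi⟩ := hr J hJ
    have h7 := L.U_le_P {i} (normalizer_inf_le h2 hV hB h5)
    have h8 : M ≤ (L.T.P {i}).subgroupOf N := fun m hm =>
      (mul_mem_cancel_left h7).1 ((mul_mem_cancel_right (inv_mem h7)).1 (L.T.P_mono hi (h6 m hm)))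
    have h9 := relIndex_mul_relIndex _ _ _ h4 h8
    rw [relIndex_inf h2 hV (L.U_le_P _)] at h9
    rcases Nat.prime_mul_iff.1 (h9 ▸ hp i) with ⟨-, h⟩ | ⟨-, h⟩
    · exact ⟨_, h8.antisymm (relIndex_eq_one.1 h)⟩
    · exact ⟨∅, by rw [L.T.P_empty, hB.antisymm L.S.U_le, h4.antisymm (relIndex_eq_one.1 h)]⟩
  le_iff I J := ⟨fun h => ((liePS L).le_iff I J).1 fun g hg => by
    by_cases h3 : g ∈ N
    · exact h (x := ⟨g, h3⟩) hg
    obtain ⟨i⟩ := L.ne
    obtain ⟨v, h5, h6⟩ := SetLike.not_le_iff_exists.1 (hV i)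
    exact (mul_mem_cancel_left (L.U_le_P J (L.S.V_le _ h5))).1
      (h (x := ⟨v * g, (mul_mem_iff_of_index_two h2).2 (iff_of_false h6 h3)⟩)
        (mul_mem (L.U_le_P I (L.S.V_le _ h5)) hg)), fun h _ hg => L.T.P_mono h hg⟩

end Two

end Cfsg.Lib.PMin
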