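import Cfsg.Agent.Lib.PMin.Rank
import Cfsg.Agent.Lib.KS.FixI
import Cfsg.Agent.Lib.St.Lie

/-!
The families of Lie type whose minimal parabolic subgroups are not all of the same shape.
-/

set_option autoImplicit false

namespace Cfsg.Lib.PMin

open Subgroup Cfsg.Lie Cfsg.Lib.St Cfsg.Lib.Chev Cfsg.Lib.Twisted Cfsg.Lib.St.LieDat

variable {p : ℕ} {G : Type*} [Group G]

theorem exists_rank {ι Φ : Type} [Fintype ι] [DecidableEq ι] [Nonempty ι] [Fintype Φ]
    {R : RootSys ι Φ} {F H : Type} [Field F] [Finite F] [CharP F p] [Group H] (C : ChevSys R F H)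
    (hF : C.Faithful) (htop : C.grp = ⊤) (hc : R.Conn) (hM : C.HMul) (e : G ≃* H ⧸ center H) :
    ∃ D : LieDat p G, Fintype.card D.κ = Fintype.card ι :=
  ⟨((ofChev C hF htop hc hM).quot fun _ ha => mem_center_iff.2 fun g =>
    congrArg Subtype.val (mem_center_iff.1 ha ⟨g, trivial⟩)).congr e, rfl⟩

theorem bad_of_rank {n : ℕ} (h : ∃ D : LieDat p G, Fintype.card D.κ = n) (hn : 2 < n) :
    ∃ D : LieDat p G, Bad D :=
  h.imp fun _ h => .inl (Fintype.two_lt_card_iff.1 (h ▸ hn))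

theorem rank_PSL {F : Type} [Field F] [Finite F] [CharP F p] {n : ℕ}
    (e : G ≃* Matrix.ProjectiveSpecialLinearGroup (Fin (n + 2)) F) :
    ∃ D : LieDat p G, Fintype.card D.κ = n + 1 := by
  simpa using exists_rank (realSL F (n + 1)).sys (realSL F _).faithful (realSL F _).grp_eq
    (conn_A _) (realSL F _).hMul e

theorem rank_PSp {F : Type} [Field F] [Finite F] [CharP F p] {n : ℕ} (e : G ≃* PSp (n + 2) F) :
    ∃ D : LieDat p G, Fintype.card D.κ = n + 2 := by
  simpa using exists_rank (realSp F (n + 2)).sys (realSp F _).faithful (realSp F _).grp_eq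
    (conn_C _) (realSp F _).hMul e

theorem bad_POmegaOdd (h : IsPOmegaOddChar p G) : ∃ D : LieDat p G, Bad D := by
  obtain ⟨F, _, _, _, n, hn, ho, ⟨e⟩⟩ := h
  obtain ⟨n, rfl⟩ := Nat.exists_eq_add_of_le' hn
  obtain ⟨S, h1, h2, h3, -⟩ := exists_omega_B F (n := n + 3) (by omega) fun h2 =>
    Nat.not_even_iff_odd.2 ho (Nat.even_iff.2 (FiniteField.even_card_of_char_two
      (ringChar.eq_iff.2 ((CharP.charP_iff_prime_eq_zero Nat.prime_two).2 h2))))
  exact bad_of_rank (exists_rank S h1 h2 (conn_B _) h3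
    (e.trans (Orth.pomegaEquiv (Orth.qOdd _ F)))) (by simp)

theorem bad_POmegaPlus (h : IsPOmegaPlusChar p G) : ∃ D : LieDat p G, Bad D := by
  obtain ⟨F, _, _, _, n, hn, ⟨e⟩⟩ := h
  obtain ⟨n, rfl⟩ := Nat.exists_eq_add_of_le' hn
  obtain ⟨S, h1, h2, h3, -⟩ := exists_omega_D F (n := n + 4) (by omega) (by omega)
  exact bad_of_rank (exists_rank S h1 h2 (conn_D _ (by omega)) h3
    (e.trans (Orth.pomegaEquiv (Orth.qPlus _ F)))) (by simp)

theorem bad_group {D : ChevalleyDatum}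
    (hD : D ∈ [chevG2, chevB2, chevD4, chevF4, chevE6, chevE7, chevE8]) {F : Type} [Field F]
    [Finite F] [CharP F p] (e : G ≃* D.group F) (h2 : 2 < D.rank) : ∃ D : LieDat p G, Bad D := by
  obtain ⟨c, h⟩ := exists_checked hD
  have : Nonempty (Fin D.rank) := ⟨⟨0, by omega⟩⟩
  exact bad_of_rank ⟨(ofChev _ (h.gsys_faithful F) (h.gsys_grp F) (h.conn hD)
    (h.gsys_adjoint F).hMul).congr e, Fintype.card_fin _⟩ h2

theorem bad_E6D4 (h : IsTwistedE6D4Char p G) : ∃ D : LieDat p G, Bad D := by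
  obtain ⟨K, _, _, _, q, hq, ⟨hK, ⟨e⟩⟩ | ⟨hK, ⟨e⟩⟩⟩ := h
  · obtain ⟨S, hS⟩ := exists_twist_E6 hq hK
    exact bad_of_rank ⟨ofTw checkedE6 (connE6 _) (isTw_E6 hK hS)
      (e.trans (equivOfMap (subtype_injective _) map_KE6)), Fintype.card_fin 4⟩ (by omega)
  · obtain ⟨S, hS⟩ := exists_twist_D4 hq hK
    refine ⟨ofTw checkedD4 (connD4 _) (isTw_D4 hK hS)
      (e.trans (equivOfMap (subtype_injective _) map_KD4)), .inr ⟨(0 : Fin 2), (1 : Fin 2),
        fun h => ?_⟩⟩
    have := (cardX_D4 hK hS hq.one_lt.le 0).symm.trans (h.trans (cardX_D4 hK hS hq.one_lt.le 1))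
    exact absurd (Nat.pow_right_injective hq.one_lt this) (by decide)

theorem bad_2F4 (h : Iso2F4 G) : ∃ D : LieDat 2 G, Bad D := by
  obtain ⟨K, _, _, m, hm, hK, ⟨e⟩⟩ := h
  obtain ⟨S, φ, ψ, h⟩ := exists_isF4 hK
  have : CharP K 2 := (CharP.charP_iff_prime_eq_zero Nat.prime_two).2 h.two
  refine ⟨ofTw checkedF4 (connF4 _) h.isTw (e.trans (equivOfMap (subtype_injective _) map_KF4)),
    .inr ⟨(0 : Fin 2), (1 : Fin 2), fun h1 => ?_⟩⟩
  exact absurd (Nat.pow_right_injective (Nat.one_lt_two_pow (by omega))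
    ((h.cardX 0).symm.trans (h1.trans (h.cardX 1)))) (by decide)

open Cfsg.Lib.Twisted.Twist Cfsg.Lib.Orth Cfsg.Lib.Orth.Gam QuadraticMap in
theorem bad_POmegaMinus (h : IsPOmegaMinusChar p G) : ∃ D : LieDat p G, Bad D := by
  obtain ⟨K, _, _, _, n, a, b, hn, hab, ⟨e⟩⟩ := h
  obtain ⟨n, rfl⟩ : ∃ m, n = m + 2 := ⟨n - 2, by omega⟩
  obtain ⟨F, _, _, _, -, hF⟩ := GLC.exists_ext K two_ne_zero
  have := Fintype.ofFinite F
  obtain ⟨σ₀, h₀⟩ := Unitary.exists_isBar (Nat.card_eq_fintype_card.symm.trans hF)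
  obtain ⟨φ, hφ⟩ := h₀.exists_ringHom rfl
  have := charP_of_injective_ringHom φ.injective p
  have : Fact p.Prime := ⟨CharP.char_is_prime K p⟩
  set σ := RingEquiv.ofBijective σ₀ h₀.bijective
  have hψ : IsGF (gamD n σ) := isGF_refl_mul (orderOf_bar h₀) _ (by simp [Q_vecD]) (by
    ext x; simp [vecD, Pi.single_apply])
  have hσ : ∀ x, (gamD n σ).σ x = x ↔ x ∈ φ.range := fun x => by rw [gamD_σ]; exact hφ x
  have hQ := nd_qPlus (F := F) (n + 2)
  have hQ₀ := nd_qMinus (n + 1) hab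
  have hE : ¬ Exc (qPlus (n + 2) F) := not_exc_of_five_le (by simp; omega)
  have hE₀ : ¬ Exc (qMinus (n + 1) K a b) := not_exc_of_five_le (by simp; omega)
  obtain ⟨D⟩ := nonempty_formData_minus (φ := φ) hQ (m := n + 1) (by simp; omega) hψ.pow
    hσ hψ.sign hab
  obtain ⟨C, h1, h2, h3, -, hC⟩ := exists_omega_D F (n := n + 2) (by omega) (by omega)
  have h4 : Function.Injective D.jO := fun o o' h => ofO_injective (congrArg Subtype.val
    (D.j_injective ((D.j_ofO o).trans ((congrArg _ h).trans (D.j_ofO o').symm))))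
  let f : commutator (O (qMinus (n + 1) K a b)) →* commutator (O (qPlus (n + 2) F)) :=
    (D.jO.comp (Subgroup.subtype _)).codRestrict _ fun o =>
      commutator_mono le_top le_top ((map_commutator ⊤ ⊤ D.jO).le (mem_map_of_mem D.jO o.2))
  have h5 : Function.Injective f := fun _ _ h => Subtype.ext (h4 (congrArg Subtype.val h))
  have h6 : (twistD σ hC).IsTw f.range := by
    refine isTw_of_le p (isTw_fix h1 h2 (Equiv.swap_apply_self _ _) fun _ => h₀.invol) ?_ ?_
    · rintro _ ⟨o, rfl⟩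
      refine Subtype.ext (ofO_injective ((ofO_cj _ (D.jO o)).trans ?_))
      rw [mul_inv_eq_iff_eq_mul]
      exact D.j_ofO o ▸ D.commute_j hQ _
    rintro g hg ⟨k, hk⟩
    obtain ⟨g₀, h7⟩ := D.exists_j_eq (fun x => (hσ x).1) (ofO_σ g.1)
      (mul_inv_eq_iff_eq_mul.1 ((ofO_cj _ g.1).symm.trans (congrArg (ofO _)
        (show cj _ (gamD n σ) g.1 = g.1 from congrArg Subtype.val hg))))
    obtain ⟨o, ho⟩ : g₀.1 ∈ (ofO _).range := mem_range_ofO.2 ⟨g₀.2, Units.ext (φ.injective (by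
      rw [← D.j_c, h7]; simp))⟩
    have h8 : D.jO o = g :=
      ofO_injective (by rw [← h7, ← D.j_ofO]; exact congrArg _ (Subtype.ext ho))
    have h9 : dickson hQ₀ o = 1 := by
      rw [← D.dickson_jO hQ, h8]
      exact congrArg Prod.fst (((ker_dsHom hQ hE).ge g.2 :) : dsHom hQ g = 1)
    refine ⟨⟨o, ?_⟩, Subtype.ext h8⟩
    rcases eq_or_ne p 2 with rfl | hp
    · exact (commutator_eq_ker_dickson hQ₀ hE₀ CharTwo.two_eq_zero).ge h9
    refine (ker_dsHom hQ₀ hE₀).le (Prod.ext h9 ?_)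
    have : spinor hQ₀ o ^ p ^ k = 1 := by
      rw [← map_pow, h4 (a₁ := o ^ p ^ k) (a₂ := 1)
        (by rw [map_pow, h8, map_one]; exact congrArg Subtype.val hk), map_one]
    rcases Int.units_eq_one_or (spinor hQ₀ o) with h | h
    · exact h
    · rw [h, ((Fact.out : p.Prime).odd_of_ne_two hp).pow.neg_one_pow] at this
      exact absurd this (by decide)
  let E : LieDat p (commutator (O (qMinus (n + 1) K a b))) :=
    { ι := _, Φ := _, κ := _, R := _, T := symD n, F := F, G := _, C := C, S := twistD σ hC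
      L := f.range
      tw := h6
      top := h2
      conn := conn_D _ (by omega)
      hMul := h3
      e := MonoidHom.ofInjective h5 }
  have hc : center E.L ≤ (center E.G).subgroupOf E.L := fun z hz => by
    obtain ⟨o, rfl⟩ := E.e.surjective z
    refine (mem_center_commutator_iff hQ hE (by simp; omega)).2
      (((mem_center_commutator_iff hQ₀ hE₀ (by simp; omega)).1
        ((mem_center_equiv E.e).1 hz)).imp (fun h => ?_) fun h => ?_)
    · exact (congrArg D.jO h).trans (map_one _)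
    · refine (congrArg D.jO h).trans (ofO_injective ?_)
      refine (D.j_ofO _).symm.trans (((congrArg _ (Subtype.ext ofO_neg)).trans (D.j_scal _)).trans ?_)
      rw [ofO_neg, show Units.map (φ : K →* F) (-1) = -1 from Units.ext (by simp)]
  have key : ∀ i j : Fin (n + 2), i.val < j → j.val ≤ 2 → (symD n).orb i ≠ (symD n).orb j :=
    fun i j h7 h8 h => by
      have := diagSym_orb.1 h
      simp only [Equiv.swap_apply_def, Fin.ext_iff, apply_ite Fin.val, Fin.val_castSucc,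
        Fin.val_last] at this
      split_ifs at this <;> omega
  exact ⟨(E.quot hc).congr (e.trans (pomegaEquiv (qMinus (n + 1) K a b))),
    .inl ⟨(symD n).orb ⟨0, by omega⟩, (symD n).orb ⟨1, by omega⟩, (symD n).orb ⟨2, by omega⟩,
      key _ _ (by simp) (by simp), key _ _ (by simp) (by simp), key _ _ (by simp) (by simp)⟩⟩

open Matrix Cfsg.Lib.Linear Matrix.SpecialLinearGroup Cfsg.Lib.Unitary Cfsg.Lib.Twisted.Twist in
theorem bad_PSU {F : Type} [Field F] [Fintype F] [CharP F p] {n q : ℕ}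
    (hF : Fintype.card F = q ^ 2) (hn : n ≠ 0) (e : G ≃* PSU (n + 3) F q) :
    ∃ D : LieDat p G, Bad D := by
  obtain ⟨σ₀, h₀⟩ := exists_isBar hF
  obtain ⟨σ, rfl⟩ : ∃ σ : F ≃+* F, σ = σ₀ := ⟨RingEquiv.ofBijective σ₀ h₀.bijective, rfl⟩
  obtain ⟨δ, hδ, hδ'⟩ := h₀.exists_skew
  obtain ⟨c, hc⟩ : ∃ c : Fˣ, σ c = (-1) ^ n * c := by
    rcases n.even_or_odd with h | h
    exacts [⟨1, by simp [h.neg_one_pow]⟩, ⟨Units.mk0 δ hδ, by simpa [h.neg_one_pow] using hδ'⟩]
  have hJ : ∀ i j, (σ : F →+* F) ((antiJ (n + 3) c).1 i j) = (antiJ (n + 3) c).1 j i := fun i j => by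
    by_cases h : i = j.rev
    · have : n + 2 = j.rev.val + j := by simp only [Fin.val_rev]; omega
      have h1 : (-1 : F) ^ n = (-1) ^ (n + 2) := by simp [pow_add]
      simp only [h, antiJ, of_apply, if_true, Fin.rev_rev, map_mul, map_pow, map_neg, map_one,
        RingHom.coe_coe, hc, h1, this, pow_add]
      rw [mul_right_comm, mul_right_comm _ ((-1) ^ j.val), ← mul_pow, mul_comm]
      simp
    · simp [antiJ, h, Fin.rev_eq_iff.not.1 (Ne.symm h)]
  have hd := (Matrix.isUnits_det_units (antiJ (n + 3) c)).ne_zero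
  have hL : (twistSU (n + 2) σ c).Fix = mSU (σ : F →+* F) (antiJ (n + 3) c).1 :=
    Subgroup.ext fun _ => autSU_eq_iff σ c
  obtain ⟨e'⟩ := h₀.nonempty_msuEquiv hJ hd (Fintype.card_fin _)
  let D : LieDat p (SU (n + 3) F q) :=
    { ι := _, Φ := _, κ := _, R := rootA (n + 2), T := symA _, F := F, G := _
      C := (realSL F (n + 2)).sys
      S := twistSU (n + 2) σ c
      L := _
      tw := isTw_fix (realSL F _).faithful (realSL F _).grp_eq Fin.rev_rev fun _ => h₀.invol
      top := (realSL F _).grp_eq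
      conn := conn_A _
      hMul := (realSL F _).hMul
      e := e'.symm.trans (MulEquiv.subgroupCongr hL.symm) }
  have hc : center D.L ≤ (center D.G).subgroupOf D.L := fun z hz => by
    obtain ⟨a, ha⟩ := ((isHerm_gramForm h₀.ne_id h₀.invol hJ hd).mem_center_SUG (by simp)).1
      ((mem_center_equiv ((MulEquiv.subgroupCongr hL).trans (msuEquiv _ _))).2 hz)
    have : z.1.1 = a • 1 := mulVec_eq_smul_iff.1 ha
    exact mem_center_iff.2 fun g => Subtype.ext (show g.1 * z.1.1 = z.1.1 * g.1 by simp [this])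
  refine ⟨(D.quot hc).congr e, Bad.quot (D := D) ?_ hc⟩
  have key : ∀ i j : Fin (n + 2), (symA (n + 2)).orb i = (symA _).orb j ↔
      i.val = j ∨ i.val + j = n + 1 := fun i j => diagSym_orb.trans (by
    simp only [Fin.ext_iff, Fin.revPerm_apply, Fin.val_rev]; omega)
  have h0 : Nat.card ((twistSU (n + 2) σ c).X ((symA _).orb 0)) = Nat.card F :=
    card_X_two (i := 0) (j := Fin.last _) (Fin.last_pos.ne) (fun m => by
      simp only [key, List.mem_cons, List.not_mem_nil, or_false, Fin.ext_iff, Fin.val_zero,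
        Fin.val_last, add_zero])
      (Fin.rev_zero _) (Fin.rev_last _) (by simp [A_A, Fin.ext_iff, hn]) (realSL F _).faithful
      h₀.invol
  rcases (by omega : n = 1 ∨ n = 2 ∨ 3 ≤ n) with rfl | rfl | h
  · refine .inr ⟨(symA _).orb 1, (symA _).orb 0, fun h => h₀.ne_id (RingHom.ext fun x => ?_)⟩
    have h1 := (card_X_one (S := twistSU 3 σ c) (i := 1) (fun m => by
      simp only [key, List.mem_singleton, Fin.ext_iff, Fin.val_one]; omega)
      (realSL F _).faithful).symm.trans (h.trans h0)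
    obtain ⟨y, rfl⟩ := (Subtype.val_injective.bijective_of_nat_card_le h1.ge).2 x
    exact y.2
  · refine .inr ⟨(symA _).orb 1, (symA _).orb 0, fun h => hδ ?_⟩
    have h1 := (Function.Surjective.bijective_of_nat_card_le
      (f := fun g : (twistSU 4 σ c).X ((symA _).orb 1) => ld (realSL F 4).sys 1 g)
      (fun t => let ⟨g, h1, h2⟩ := KS.full_mid h₀ c (i := 1) rfl t; ⟨⟨g, h1⟩, h2⟩)
      (h.trans h0).le).1 (a₁ := ⟨_, (KS.mem_X_mid h₀ c rfl).2 ⟨0, δ,
        by simpa using add_eq_zero_iff_eq_neg'.2 hδ', rfl⟩⟩)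
        (a₂ := ⟨_, (KS.mem_X_mid h₀ c rfl).2 ⟨0, 0, by simp, rfl⟩⟩)
        ((KS.ld_hs ..).trans (KS.ld_hs ..).symm)
    simpa [KS.hs, coe_heis, KS.mid] using congrFun (congrFun (congrArg (·.1.1) h1) 1) 3
  · exact .inl ⟨(symA _).orb 0, (symA _).orb 1, (symA _).orb ⟨2, by omega⟩,
      by simp [key, hn], by simp [key]; omega, by simp [key]; omega⟩

end Cfsg.Lib.PMin
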