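import Cfsg.Agent.Lib.PMin.Abs

/-!
Transitivity on the minimal parabolic subgroups forces rank at most two and equal parameters.
-/

set_option autoImplicit false

namespace Cfsg.Lib.PMin

open Subgroup Cfsg.Lib.St Cfsg.Lib.BN Cfsg.Lib.Chev Cfsg.Lib.Twisted

variable {p : ℕ} {G : Type*} [Group G]

theorem exists_leaf [Finite G] (L : LieP p G) :
    ∃ k m, ∀ l, L.s k * L.s l ≠ L.s l * L.s k → l = m := by
  by_contra! h
  have hI := L.T.invGen
  have h0 : ∀ k i, len L.s (L.s k * L.s i) < 1 → k = i := fun k i e => L.inj (by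
    rw [← hI.cancel_right i (L.s k), hI.eq_one_of_len (Nat.lt_one_iff.1 e), one_mul])
  have key : ∀ n, ∃ w i j, n ≤ len L.s w ∧ (∀ k, len L.s (L.s k * w) < len L.s w → k = i) ∧
      ∀ k, len L.s (L.s k * (L.s i * w)) < len L.s (L.s i * w) → k = j := fun n => by
    induction n with
    | zero =>
      obtain ⟨i⟩ := L.ne
      exact ⟨1, i, i, le_rfl.trans_eq' (len_one _), by simp, fun k => by
        simpa [L.len_s] using h0 k i⟩
    | succ n ih =>
      obtain ⟨w, i, j, h1, h2, h3⟩ := ih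
      obtain ⟨l, h4, h5⟩ := h i j
      have h6 : len L.s (L.s l * w) = len L.s w + 1 := (L.len_left l w).resolve_right fun e =>
        h4 (by rw [h2 l (by omega)])
      refine ⟨L.s l * w, l, i, by omega, fun k hk => by_contra fun h7 => ?_,
        by rwa [hI.cancel_left]⟩
      have h8 : ∀ a ∈ ({l, k} : Set L.ι), len L.s (L.s a * (L.s l * w)) < len L.s (L.s l * w) := by
        rintro _ (rfl | rfl)
        · rw [hI.cancel_left]; omega
        · exact hk
      obtain ⟨u, h9, h10⟩ := exists_prefix hI L.T.exch h8 [l, k] (by simp) (by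
        have := L.len_left l (L.s k)
        rw [L.len_s] at this
        simpa using this.resolve_right fun e => h7 (h0 l k (by omega)).symm)
      simp only [wp_cons, wp_nil, mul_one, mul_assoc, mul_right_inj] at h9
      obtain rfl := h2 k (by rw [h9, hI.cancel_left, ← h9]; simp at h10; omega)
      obtain ⟨v, h11, h12⟩ := exists_prefix hI L.T.exch h8 [l, k, l] (by simp)
        (by simpa using (LieP.len_three (Ne.symm h4)).2)
      simp only [wp_cons, wp_nil, mul_one, mul_assoc, mul_right_inj] at h11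
      have h13 := hI.le_len_simple_mul k w
      refine h5 (h3 l ?_)
      rw [h11, hI.cancel_left, hI.cancel_left]
      rw [h6] at h12
      rw [h11, hI.cancel_left, ← h11] at h13
      simp at h12
      omega
  have : Finite L.W := .of_surjective L.T.δ fun w => L.T.exists_δ (by
    rw [St.WJ, Set.image_univ, hI.gen]; trivial)
  obtain ⟨n, hn⟩ := (Set.finite_range (len L.s)).bddAbove
  obtain ⟨w, -, -, h1, -⟩ := key (n + 1)
  exact absurd (h1.trans (hn ⟨w, rfl⟩)) (by omega)

variable [hp : Fact p.Prime] [Finite G]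

omit hp in
theorem card_le_two [IsSimpleGroup G] (L : LieP p G) (h : (liePS L).Tr p) (i j k : L.ι) :
    i = j ∨ i = k ∨ j = k := by
  by_contra! h0
  obtain ⟨a, b, c, h1, h2, h3⟩ : ∃ a b c, b ≠ c ∧ L.s a * L.s b ≠ L.s b * L.s a ∧
      L.s a * L.s c ≠ L.s c * L.s a := by
    obtain ⟨x, hx, l, -, h1⟩ := LieP.irr (L := L) (A := {i})
      (fun e => h0.1 (e.ge trivial : j ∈ _).symm) fun e => (e.ge trivial : i ∈ _) rfl
    rw [hx] at h1
    obtain ⟨x, h2, y, h3, h4⟩ := LieP.irr (L := L) (A := {i, l}) (fun e => by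
      rcases (e.ge trivial : j ∈ _) with h | rfl
      · exact h0.1 h.symm
      · exact (e.ge trivial : k ∈ _).elim (fun h => h0.2.1 h.symm) fun h => h0.2.2 h.symm)
      fun e => (e.ge trivial : i ∈ _) (.inl rfl)
    rcases h2 with rfl | rfl
    · exact ⟨x, l, y, fun e => h3 (.inr e.symm), h1, h4⟩
    · exact ⟨x, i, y, fun e => h3 (.inl e.symm), h1.symm, h4⟩
  obtain ⟨x, m, h4⟩ := exists_leaf L
  obtain ⟨θ, -, h5, h6⟩ := h x a
  obtain ⟨π, h7, h8, h9⟩ := L.exists_node (θ := θ) fun g => by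
    rw [← L.normalizer_U]; exact mem_normalizer_map h5 g
  obtain ⟨y, hy⟩ := L.T.surj x trivial
  obtain rfl : π x = a := L.mem_of_δ (J := {a}) ((h6 y).2 (L.mem_P_simple hy)) (h8 x y hy)
  obtain ⟨b, rfl⟩ := Finite.surjective_of_injective h7 b
  obtain ⟨c, rfl⟩ := Finite.surjective_of_injective h7 c
  exact h1 (by rw [h4 b (mt (h9 _ _) h2), h4 c (mt (h9 _ _) h3)])

omit [Finite G] in
theorem relIndex_P (D : LieDat p G) (k : D.lieP.ι) :
    D.lieP.T.B.relIndex (D.lieP.T.P {k}) = Nat.card (D.S.X k) + 1 := by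
  have := D.finite
  rw [D.lieP.S.index_B_singleton trivial, add_left_inj]
  refine Eq.trans ?_ (relIndex_V_singleton (S := D.S) D.tw.faithful k)
  change (((D.C.UJ _).subgroupOf D.L).comap D.e.toMonoidHom).relIndex
    ((D.C.U.subgroupOf D.L).comap D.e.toMonoidHom) = _
  rw [relIndex_comap, map_comap_eq_self_of_surjective D.e.surjective,
    ← inf_subgroupOf_right D.C.U, relIndex_subgroupOf inf_le_right, D.tw.U_inf]
  rfl

omit [Finite G] in
theorem card_X_eq (D : LieDat p G) (h : (liePS D.lieP).Tr p) (k l : D.κ) :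
    Nat.card (D.S.X k) = Nat.card (D.S.X l) := by
  have h1 : (D.lieP.T.P ∅).relIndex _ = (D.lieP.T.P ∅).relIndex _ := h.relIndex_eq k l
  rw [D.lieP.T.P_empty] at h1
  exact add_right_cancel ((relIndex_P D k).symm.trans (h1.trans (relIndex_P D l)))

/-- The rank is at least three or two simple root subgroups have different orders. -/
def Bad (D : LieDat p G) : Prop :=
  (∃ i j k : D.κ, i ≠ j ∧ i ≠ k ∧ j ≠ k) ∨ ∃ k l, Nat.card (D.S.X k) ≠ Nat.card (D.S.X l)

omit [Finite G] in
theorem Bad.not_tr [IsSimpleGroup G] {D : LieDat p G} (h : Bad D) : ¬ (liePS D.lieP).Tr p :=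
  fun h1 => by
    have := D.finite
    rcases h with ⟨i, j, k, h⟩ | ⟨k, l, h⟩
    · rcases card_le_two _ h1 i j k with h2 | h2 | h2
      exacts [h.1 h2, h.2.1 h2, h.2.2 h2]
    · exact h (card_X_eq D h1 k l)

omit [Finite G] hp in
theorem Bad.quot {D : LieDat p G} (h : Bad D) (hc : center D.L ≤ (center D.G).subgroupOf D.L) :
    Bad (D.quot hc) := by
  have key : ∀ k : D.κ, Nat.card ((D.quot hc).S.X k) = Nat.card (D.S.X k) := fun k => by
    rw [show (D.quot hc).S.X k = _ from twistMap_X D.top (S := D.S) (σ' := (D.quot hc).S.σ)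
      (fun _ => rfl) D.tw.faithful (QuotientGroup.ker_mk' _).le k]
    refine (Nat.card_congr (Equiv.ofBijective ((QuotientGroup.mk' _).subgroupMap _)
      ⟨(injective_iff_map_eq_one _).2 fun a ha => Subtype.ext ?_,
        MonoidHom.subgroupMap_surjective _ _⟩)).symm
    exact D.tw.faithful.eq_one_of_U_H (XS_posJ_le_U _ a.2.1) ((D.tw.faithful.mem_center_iff
      D.top).1 ((QuotientGroup.eq_one_iff _).1 (congrArg Subtype.val ha))).1
  exact h.imp id fun ⟨k, l, h⟩ => ⟨k, l, by rwa [key, key]⟩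

omit [Finite G] hp in
theorem exists_map {U : Subgroup G} {A : PS U} (h : A.Tr p) (k : A.κ) {z : G}
    (hz : z ∈ U ⊓ centralizer (A.P {k} : Set G)) (l : A.κ) :
    ∃ θ : MulAut G, θ z ∈ U ⊓ centralizer (A.P {l} : Set G) := by
  obtain ⟨θ, -, h1, h2⟩ := h k l
  refine ⟨θ, (h1 z).2 hz.1, fun g hg => ?_⟩
  obtain ⟨g, rfl⟩ := θ.surjective g
  rw [← map_mul, ← map_mul, hz.2 g ((h2 g).1 hg)]

omit hp in
theorem false_of_center [Fact p.Prime] [IsSimpleGroup G] {U : Subgroup G} (hU : IsPGroup p U)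
    (h0 : U ≠ ⊥) {A : PS U} (h : A.Tr p) {g : G} (h1 : g ∉ normalizer (U : Set G))
    (h2 : ∀ z ∈ U ⊓ centralizer (U : Set G), g * z = z * g) : False := by
  have h3 : ∀ θ : MulAut G, (∀ g, θ g ∈ U ↔ g ∈ U) → ∀ g,
      θ g ∈ U ⊓ centralizer (U : Set G) ↔ g ∈ U ⊓ centralizer (U : Set G) := fun θ h g =>
    and_congr (h g) ⟨fun e u hu => θ.injective (by simpa using e _ ((h u).2 hu)), fun e u hu => by
      obtain ⟨u, rfl⟩ := θ.surjective u
      rw [← map_mul, ← map_mul, e u ((h u).1 hu)]⟩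
  obtain ⟨J, hJ⟩ := A.ovr (normalizer ((U ⊓ centralizer (U : Set G) : Subgroup G) : Set G))
    fun b hb => mem_normalizer_iff.2 fun x =>
      (h3 (MulAut.conj b) (fun x => (mem_normalizer_iff.1 hb x).symm) x).symm
  obtain ⟨k, hk⟩ : J.Nonempty := Set.nonempty_iff_ne_empty.2 (by
    rintro rfl
    exact h1 (A.P_empty ▸ hJ ▸ Fusion.mem_normalizer_of_conj_mem fun z hz => by
      rwa [h2 z hz, mul_inv_cancel_right]))
  obtain rfl : J = Set.univ := Set.eq_univ_of_forall fun l => Set.singleton_subset_iff.1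
    ((A.le_iff _ _).1 fun x hx => by
      obtain ⟨θ, -, h4, h5⟩ := h l k
      rw [← hJ, ← mem_normalizer_map (h3 θ h4), hJ]
      exact (A.le_iff _ _).2 (Set.singleton_subset_iff.2 hk) ((h5 x).2 hx))
  rw [A.P_univ, normalizer_eq_top_iff] at hJ
  rcases hJ.eq_bot_or_eq_top with h4 | h4
  · have := (nontrivial_iff_ne_bot U).2 h0
    obtain ⟨z, h5⟩ := (nontrivial_iff_exists_ne 1).1 (hU.center_nontrivial)
    exact h5 (Subtype.ext (Subtype.ext (h4.le ⟨z.1.2, fun u hu =>
      congrArg Subtype.val (mem_center_iff.1 z.2 ⟨u, hu⟩)⟩)))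
  · exact h1 (le_normalizer (h4.ge (mem_top g)).1)

end Cfsg.Lib.PMin
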