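import Cfsg.Agent.Lib.PMin.Fam
import Cfsg.Agent.Lib.Chev.OverE

/-!
The groups of rank two and the derived groups over the smallest fields.
-/

set_option autoImplicit false

namespace Cfsg.Lib.PMin

open Subgroup Cfsg.Lie Cfsg.Lib.St Cfsg.Lib.Chev Cfsg.Lib.Twisted Cfsg.Lib.St.LieDat

variable {p : ℕ} {G : Type*} [Group G]

theorem not_V_le [Finite G] (L : LieP 2 G) {N : Subgroup G} (h2 : N.index = 2)
    (h : ∀ i, ∃ j, L.s i * L.s j ≠ L.s j * L.s i) (i : L.ι) : ¬ L.S.V {i} ≤ N := fun h3 => by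
  have := normal_of_index_eq_two h2
  obtain ⟨j, hj⟩ := h i
  refine L.S.not_dvd ((dvd_of_eq h2.symm).trans (index_dvd_of_le fun u hu => ?_))
  obtain ⟨x, hx⟩ := L.T.surj j trivial
  obtain ⟨t, h4, h5⟩ := LieP.exists_mul_of_ne (T := L.S.U ⊓ N) inf_le_left
    (fun x hx g hg => ⟨hg, this.conj_mem x hx.2 g⟩) hj (fun h4 => hj (by
      rw [L.mem_of_δ (J := {i}) (L.norm _ x fun v hv => L.S.U_le (L.S.V_le _
        (LieP.conj_V (L.mem_P_simple hx) (h4 ⟨L.S.V_le _ hv, h3 hv⟩)))) hx])) hu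
  exact (N.mul_mem_cancel_left (N.inv_mem h4.2)).1 (h3 h5)

theorem eq_top_congr [Fact p.Prime] {K : Type*} [Group K] [Finite K] (hK : IsChevSimple p K)
    (e : K ≃* G) (M : Subgroup G) (h1 : pCore p M = ⊥) (h2 : ¬ p ∣ M.index) : M = ⊤ :=
  map_injective (f := e.symm.toMonoidHom) e.symm.injective (by
    rw [map_top_of_surjective _ e.symm.surjective]
    exact eq_top_of_chev hK ((Core.pCore_eq_bot_congr (e.symm.subgroupMap M)).1 h1)
      ((index_map_equiv M e.symm).symm ▸ h2))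

theorem two_of_card {κ : Type} [Fintype κ] (h : Fintype.card κ = 2) (k : κ) :
    ∃ l, k ≠ l ∧ ∀ m, m = k ∨ m = l := by
  obtain ⟨l, hl⟩ := Fintype.exists_ne_of_one_lt_card (h ▸ one_lt_two) k
  refine ⟨l, hl.symm, fun m => by_contra fun h1 => ?_⟩
  rw [not_or] at h1
  exact (h ▸ Fintype.two_lt_card_iff.2 ⟨m, k, l, h1.1, h1.2, hl.symm⟩ : 2 < 2).false

variable {X : Type*} [Group X] [Finite X] {K : Subgroup X} [K.Normal]

theorem main_rank_two [Fact p.Prime] (hX : IsPMinimal p X) (D : LieDat p K)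
    (hκ : Fintype.card D.κ = 2) : p = 2 ∧ K ≠ ⊤ := by
  obtain ⟨T⟩ : Nonempty (Sylow p K) := inferInstance
  obtain ⟨-, h1, h2⟩ := main hX (.refl K) D.lieP.S.pU D.lieP.S.not_dvd (liePS D.lieP) T
  obtain ⟨k⟩ := D.nκ
  obtain ⟨l, h3, h4⟩ := two_of_card hκ k
  exact ⟨h1.eq_two h3 h4, h2 ⟨k, l, h3⟩⟩

theorem B_le_U (D : LieDat 2 G) [Subsingleton D.Fˣ] : D.lieP.T.B ≤ D.lieP.S.U := fun g hg => by
  obtain ⟨u, hu, k, hk, e⟩ := D.C.mem_B_iff.1 hg
  have : D.C.H ≤ ⊥ := (closure_le _).2 (by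
    rintro _ ⟨r, t, rfl⟩
    rw [Subsingleton.elim t 1, D.C.h_one]
    exact one_mem _)
  rw [mem_bot.1 (this hk), mul_one] at e
  exact D.mem_lieP_U.2 (e.symm ▸ hu : D.L.subtype (D.e.toMonoidHom g) ∈ _)

theorem main_two (hX : IsPMinimal 2 X) (hK : IsChevSimple 2 K) (D : LieDat 2 G)
    (hκ : Fintype.card D.κ = 2) [Subsingleton D.Fˣ] {N : Subgroup G} (h2 : N.index = 2)
    (e : K ≃* N) (hp : ∀ k, (Nat.card (D.S.X k) + 1).Prime) (T : Sylow 2 K) :
    IsCoatom (normalizer (((T : Subgroup K).map K.subtype : Subgroup X) : Set X)) ∧ K ≠ ⊤ ∧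
      (∀ k l, Nat.card (D.S.X k) = Nat.card (D.S.X l)) ∧ ∀ k : D.lieP.ι, ∀ z ∈ N, z * z = 1 →
        z ∈ D.lieP.S.U → z ∈ centralizer (D.lieP.T.P {k} : Set G) →
        (∀ u ∈ D.lieP.S.U ⊓ centralizer (D.lieP.S.U : Set G), u = 1 ∨ u = z) → z = 1 := by
  have := D.finite
  have hn := normal_of_index_eq_two h2
  have hB := B_le_U D
  have hB' := hB.antisymm D.lieP.S.U_le
  have hV := not_V_le D.lieP h2 fun i : D.κ => by
    obtain ⟨l, h1, -⟩ := two_of_card hκ i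
    obtain ⟨_, rfl, j, -, h⟩ := irr_of_conn (T := D.T) D.conn {i} ⟨i, rfl⟩ ⟨l, h1.symm⟩
    exact ⟨j, fun e => h (congrArg Subtype.val e)⟩
  obtain ⟨h3, h4, h5⟩ := main hX e D.lieP.S.pU.comap_subtype (not_dvd_inf D.lieP)
    (twoPS h2 hV hB (eq_top_congr hK e) (fun (J : Set D.κ) hJ => by
      obtain ⟨k, hk⟩ := (Set.ne_univ_iff_exists_notMem J).1 hJ
      obtain ⟨l, -, h⟩ := two_of_card hκ k
      exact ⟨l, fun m hm => (h m).resolve_left fun e => hk (e ▸ hm)⟩)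
      fun i => by rw [← hB', relIndex_P]; exact hp i) T
  refine ⟨h3, h5 (show Nontrivial D.κ from Fintype.one_lt_card_iff_nontrivial.1
    (by omega)), fun (k l : D.lieP.ι) => ?_, fun k z h6 h7 h8 h9 h10 => by_contra fun h0 => ?_⟩
  · have h6 : ((D.lieP.T.P ∅).subgroupOf N).relIndex ((D.lieP.T.P {(k : D.lieP.ι)}).subgroupOf N) =
      ((D.lieP.T.P ∅).subgroupOf N).relIndex ((D.lieP.T.P {(l : D.lieP.ι)}).subgroupOf N) :=
      h4.relIndex_eq k l
    rwa [D.lieP.T.P_empty, hB', relIndex_inf h2 hV (D.lieP.U_le_P _),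
      relIndex_inf h2 hV (D.lieP.U_le_P _), ← hB', relIndex_P, relIndex_P, add_left_inj] at h6
  obtain ⟨l, -, h11⟩ := two_of_card hκ k
  obtain ⟨θ, a1, a2⟩ := exists_map h4 k (z := ⟨z, h6⟩) ⟨h8, fun g hg => Subtype.ext (h9 g hg)⟩ l
  obtain ⟨v, a3, a4⟩ := SetLike.not_le_iff_exists.1 (hV k)
  replace a3 := D.lieP.S.V_le _ a3
  have a5 := D.lieP.U_le_P {(l : D.lieP.ι)}
  have key : ∀ c ∈ D.lieP.S.U, (∀ g ∈ D.lieP.T.P {(l : D.lieP.ι)}, g ∈ N → g * c = c * g) →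
      v * c = c * v → c = 1 := fun c b1 b2 b3 => by
    have b4 : c ∈ centralizer (D.lieP.T.P {(l : D.lieP.ι)} : Set G) := fun g hg => by
      by_cases h : g ∈ N
      · exact b2 g hg h
      have := b2 _ (mul_mem (a5 a3) hg) ((mul_mem_iff_of_index_two h2).2 (iff_of_false a4 h))
      rwa [← mul_assoc, ← b3, mul_assoc, mul_assoc, mul_right_inj] at this
    refine (h10 c ⟨b1, fun g hg => b4 g (a5 hg)⟩).resolve_right ?_
    rintro rfl
    obtain ⟨J, hJ⟩ := D.lieP.exists_eq_P (M := centralizer {c}) fun g hg =>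
      mem_centralizer_singleton_iff.2 (b4 g (D.lieP.T.B_le_P _ hg))
    have b5 : ∀ m, c ∈ centralizer (D.lieP.T.P {m} : Set G) → m ∈ J := fun m h =>
      Set.singleton_subset_iff.1 (((liePS D.lieP).le_iff _ _).1 fun g hg =>
        hJ.le (mem_centralizer_singleton_iff.2 (h g hg)))
    rw [Set.eq_univ_of_forall fun m => b5 m (by rcases h11 m with rfl | rfl <;> assumption),
      D.lieP.T.P_self] at hJ
    refine h0 (congrArg Subtype.val (e.symm.injective (a₁ := ⟨c, h6⟩) (a₂ := 1) ?_))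
    rw [map_one]
    refine (center_eq_bot_of_chev hK).le (mem_center_iff.2 fun g => e.injective (Subtype.ext ?_))
    simpa using mem_centralizer_singleton_iff.1 (hJ.ge (mem_top (e g : G)))
  obtain ⟨y, hy⟩ : ∃ y : G, y = θ ⟨z, h6⟩ := ⟨_, rfl⟩
  have b1 : y ∈ D.lieP.S.U := hy ▸ a1
  have b2 : ∀ g ∈ D.lieP.T.P {(l : D.lieP.ι)}, g ∈ N → g * y = y * g := fun g h h' =>
    hy ▸ congrArg Subtype.val (a2 ⟨g, h'⟩ h)
  have b3 : y * y = 1 := by
    rw [hy, ← coe_mul, ← map_mul, show (⟨z, h6⟩ : N) * ⟨z, h6⟩ = 1 from Subtype.ext h7, map_one,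
      coe_one]
  have b4 := mul_mem (mul_mem a3 b1) (inv_mem a3)
  have b5 := b2 _ (a5 b4) (hn.conj_mem _ (hy ▸ (θ _).2) _)
  have b6 := b2 _ (a5 (mul_mem a3 a3)) ((mul_mem_iff_of_index_two h2).2 Iff.rfl)
  have b7 := key _ (mul_mem b1 b4) (fun g h h' => by
    have := b2 _ (mul_mem (mul_mem (inv_mem (a5 a3)) h) (a5 a3)) (hn.conj_mem' _ h' _)
    rw [← mul_assoc, b2 g h h', mul_assoc, mul_assoc y, mul_right_inj]
    calc _ = v * (v⁻¹ * g * v * y) * v⁻¹ := by group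
      _ = _ := by rw [this]; group) (by
    calc _ = v * y * v⁻¹ * (v * v * y) * v⁻¹ := by group
      _ = v * y * v⁻¹ * y * v := by rw [b6]; group
      _ = _ := by rw [b5])
  have b8 := key y b1 b2 (mul_inv_eq_iff_eq_mul.1 (mul_left_cancel (b7.trans b3.symm)))
  exact h0 (congrArg Subtype.val (θ.injective (a₁ := ⟨z, h6⟩) (a₂ := 1)
    (Subtype.ext (by rw [← hy, b8, map_one, coe_one]))))

/-- the datum of type G₂ -/
noncomputable def dG2 (p : ℕ) (F : Type) [Field F] [Finite F] [CharP F p] :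
    LieDat p (chevG2.group F) := .ofChev _ (checkedG2.gsys_faithful F) (checkedG2.gsys_grp F)
      (connG2 _) (checkedG2.gsys_adjoint F).hMul

set_option maxRecDepth 100000 in
theorem top_G2 (F : Type) [Field F] [Finite F] [CharP F 2] :
    ∃ (x : F → chevG2.group F) (k : (dG2 2 F).lieP.ι) (y : chevG2.group F),
      (∀ t, x t * x t = 1) ∧ x 0 = 1 ∧ x 1 ≠ 1 ∧
      (∀ u, u ∈ (dG2 2 F).lieP.S.U ⊓ centralizer ((dG2 2 F).lieP.S.U : Set (chevG2.group F)) ↔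
        ∃ t, u = x t) ∧ (dG2 2 F).lieP.T.δ y = (dG2 2 F).lieP.s k ∧ ∀ t, y * x t = x t * y := by
  have h := checkedG2.gsys_base (F := F) (by simp) (θ := (rtN chevG2 11)) (by decide +kernel)
  obtain ⟨i, hi⟩ := h.orth
  refine ⟨(checkedG2.gsys F).x (rtN chevG2 11), i,
    (checkedG2.gsys F).x (checkedG2.R.neg (checkedG2.R.simple i)) 1, fun t => ?_,
    PreSys.x_zero _ _, fun e => one_ne_zero (h.faithful.x_eq_one_iff.1 e), fun u => ⟨fun hu => ?_,
      ?_⟩, twTits_δ_neg (dG2 2 F).tw _ (PreSys.x_mem _ ?_ _) fun e => one_ne_zero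
        (h.faithful.x_eq_one_iff.1 (congrArg Subtype.val e)), fun t => ChevSys.commute_top h.isTop t
          (mem_sup_right (PreSys.x_mem _ ?_ _))⟩
  · rw [← PreSys.x_add, CharTwo.add_self_eq_zero, PreSys.x_zero]
  · refine (checkedG2.gsys F).mem_XS_singleton.1 (h.faithful.mem_XS_of_detects h.comm
      (K := (checkedG2.gsys F).U) (fun b hb => ?_) hu.1 fun k hk => (hu.2 k hk).symm)
    refine (em (b = rtN chevG2 11)).symm.imp (fun e => ?_) fun e => .inl ⟨e, e ▸ h.central⟩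
    obtain ⟨c, d, h1, h2, h3⟩ : ∃ c d : Fin chevG2.nroots, checkedG2.R.IsPos c ∧
        checkedG2.R.α d = checkedG2.R.α c + checkedG2.R.α b ∧ ((chevG2.chainM c b 1).natAbs = 1 ∨
          (chevG2.chainM c b 1).natAbs = 3) := by
      revert b; decide +kernel
    exact ⟨c, d, h1, h2, cast_ne_zero_of_natAbs 2 Nat.prime_three (by omega) h3, 1, one_ne_zero, 1,
      one_mem _, (mul_one ((checkedG2.gsys F).x c 1)).symm ▸ (checkedG2.gsys F).x_mem_U h1 1⟩
  · rintro ⟨t, rfl⟩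
    exact ⟨(checkedG2.gsys F).x_mem_U h.isTop.isPos t, fun k hk => (h.central t k hk).symm⟩
  · exact ⟨RootSys.isPos_neg_iff.not.2 (not_not.2 (RootSys.isPos_simple i)),
      (RootSys.inJ_simple_iff.2 ((trivSym _).mem_J.2 rfl)).neg⟩
  · change checkedG2.R.pair _ _ = 0
    rwa [RootSys.pair_neg_left, neg_eq_zero, RootSys.pair_eq_zero_comm]

theorem not_tr_G2 (F : Type) [Field F] [Finite F] [CharP F 2] [IsSimpleGroup (chevG2.group F)] :
    ¬ (liePS (dG2 2 F).lieP).Tr 2 := fun h => by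
  have := (dG2 2 F).finite
  obtain ⟨x, k, y, -, -, -, h1, h2, h3⟩ := top_G2 F
  refine false_of_center (dG2 2 F).lieP.S.pU (dG2 2 F).lieP.U_ne_bot h (g := y) (fun h4 => ?_)
    fun z hz => ?_
  · rw [LieP.normalizer_U, St.Tits.mem_B, h2] at h4
    exact LieP.s_ne_one _ _ h4
  · obtain ⟨t, rfl⟩ := (h1 z).1 hz
    exact h3 t

end Cfsg.Lib.PMin
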